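import Mathlib.GroupTheory.Transfer
import Mathlib.GroupTheory.SpecificGroups.Cyclic
import Cfsg.Agent.H776.Co.Loc

/-!
# S5227: `|T ∩ K| ≠ 3` (task `Loc.card_inf_ne` of helper776)
-/

set_option autoImplicit false

namespace Cfsg.Agent.H38.Co1

open Subgroup Cfsg.Agent.H776.Co

universe u

section gen

variable {X : Type u} [Group X] [Finite X]

/-- the Sylow index of `T ∩ K`, `K` normal -/
theorem relIndex_dvd (T K : Subgroup X) [K.Normal] : T.relIndex K ∣ T.index := by
  have h1 := Subgroup.relIndex_mul_relIndex (T ⊓ K) T (T ⊔ K) inf_le_left le_sup_left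
  have h2 := Subgroup.relIndex_mul_relIndex (T ⊓ K) K (T ⊔ K) inf_le_right le_sup_right
  rw [Subgroup.inf_relIndex_left] at h1
  rw [Subgroup.inf_relIndex_right, Subgroup.relIndex_sup_right] at h2
  have h3 : K.relIndex T ≠ 0 := Subgroup.index_ne_zero_of_finite
  have h4 : T.relIndex (T ⊔ K) = T.relIndex K := by
    have h5 : K.relIndex T * T.relIndex (T ⊔ K) = K.relIndex T * T.relIndex K := by
      rw [h1, ← h2, mul_comm]
    exact Nat.eq_of_mul_eq_mul_left (Nat.pos_of_ne_zero h3) h5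
  rw [← h4]
  exact Subgroup.relIndex_dvd_index_of_le le_sup_left

/-- Burnside's normal complement theorem for a subgroup `C` with Sylow subgroup `D`. -/
theorem burnside {p : ℕ} [Fact p.Prime] {C D : Subgroup X} (hDC : D ≤ C) (hD : IsPGroup p D)
    (hi : ¬ p ∣ D.relIndex C)
    (hN : ∀ c ∈ C, (∀ d ∈ D, c * d * c⁻¹ ∈ D) → ∀ d ∈ D, d * c = c * d) :
    ∃ R : Subgroup X, R ≤ C ∧ (∀ c ∈ C, ∀ r ∈ R, c * r * c⁻¹ ∈ R) ∧ ¬ p ∣ Nat.card R ∧
      (∀ c ∈ C, (Nat.Coprime (orderOf c) p) → c ∈ R) ∧ Nat.card R * Nat.card D = Nat.card C := by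
  have hD' : IsPGroup p ↥(D.subgroupOf C) := hD.comap_of_injective C.subtype C.subtype_injective
  let P : Sylow p C := hD'.toSylow hi
  have hP : ∀ x : C, x ∈ P ↔ (x : X) ∈ D := fun x => Iff.rfl
  have hn : normalizer (P : Set C) ≤ centralizer (P : Set C) := by
    intro c hc
    rw [mem_centralizer_iff]
    intro d hd
    apply Subtype.ext
    refine hN c c.2 ?_ d hd
    intro e he
    have := (mem_normalizer_iff.1 hc (⟨e, hDC he⟩ : C)).1 he
    exact this
  obtain ⟨N, hNn, hcompl, hcard, hmem⟩ : ∃ N : Subgroup C, N.Normal ∧ N.IsComplement' (P : Subgroup C) ∧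
      ¬ p ∣ Nat.card N ∧ ∀ c : C, Nat.Coprime (orderOf c) p → c ∈ N := by
    refine ⟨(MonoidHom.transferSylow P hn).ker, inferInstance, MonoidHom.ker_transferSylow_isComplement' P hn,
      MonoidHom.not_dvd_card_ker_transferSylow P hn, fun c ho => ?_⟩
    rw [MonoidHom.mem_ker, ← orderOf_eq_one_iff]
    have h3 : orderOf (MonoidHom.transferSylow P hn c) ∣ orderOf c := orderOf_map_dvd _ c
    obtain ⟨k, hk⟩ := (IsPGroup.iff_orderOf.1 P.2) (MonoidHom.transferSylow P hn c)
    rw [hk] at h3 ⊢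
    have h4 : Nat.Coprime (p ^ k) p := Nat.Coprime.coprime_dvd_left h3 ho
    rcases Nat.eq_zero_or_pos k with h0 | h0
    · rw [h0, pow_zero]
    · exfalso
      have h5 : p ∣ p ^ k := dvd_pow_self p (by omega)
      have h6 := Nat.dvd_gcd h5 (dvd_refl p)
      rw [h4] at h6
      exact (Fact.out : p.Prime).one_lt.ne' (Nat.dvd_one.1 h6)
  have hc : Nat.card ↥(N.map C.subtype) = Nat.card N :=
    (Nat.card_congr (N.equivMapOfInjective _ C.subtype_injective).toEquiv).symm
  refine ⟨N.map C.subtype, ?_, ?_, ?_, ?_, ?_⟩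
  · rintro _ ⟨c, -, rfl⟩
    exact c.2
  · rintro c hc _ ⟨r, hr, rfl⟩
    exact ⟨⟨c, hc⟩ * r * ⟨c, hc⟩⁻¹, hNn.conj_mem r hr ⟨c, hc⟩, rfl⟩
  · rw [hc]; exact hcard
  · intro c hc ho
    exact ⟨⟨c, hc⟩, hmem ⟨c, hc⟩ (by rwa [Subgroup.orderOf_mk]), rfl⟩
  · have h3 := hcompl.card_mul
    rw [hc, ← h3]
    congr 1
    exact (Nat.card_congr (Subgroup.subgroupOfEquivOfLe hDC).toEquiv).symm

end gen

variable {Γ : Type u} [Group Γ] [Finite Γ] {T U1 U2 : Subgroup Γ} {z : Γ} {Z : Subgroup Γ}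

theorem z_mem (h : Loc T U1 U2 z Z) : z ∈ T := by
  have h1 : z ∈ U1 ⊓ U2 := by rw [h.inf]; exact mem_zpowers z
  exact h.le1 h1.1

theorem z_order (h : Loc T U1 U2 z Z) : orderOf z = 3 :=
  orderOf_eq_prime (h.exp z (z_mem h)) h.z_ne

theorem T_pgroup (h : Loc T U1 U2 z Z) : IsPGroup 3 T :=
  IsPGroup.of_card (n := 3) (by rw [h.card_T]; norm_num)

/-- **Task L3.** -/
theorem card_inf_ne (h : Loc T U1 U2 z ⊥) {K : Subgroup Γ} (hK : K.Normal) (hs : IsSimpleGroup K)
    (hc : ¬ IsMulCommutative K) (hz : z ∈ K) : Nat.card ↥(T ⊓ K) ≠ 3 := by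
  intro h3
  have : Fact (Nat.Prime 3) := ⟨Nat.prime_three⟩
  have hzT := z_mem h
  have hzo := z_order h
  have hz3 : z ^ 3 = 1 := h.exp z hzT
  set D := zpowers z with hD
  have hDc : Nat.card D = 3 := by rw [hD, Nat.card_zpowers, hzo]
  have hDK : D = T ⊓ K := by
    apply Subgroup.eq_of_le_of_card_ge
    · rw [hD, zpowers_le]; exact ⟨hzT, hz⟩
    · rw [h3, hDc]
  have hDp : IsPGroup 3 D := IsPGroup.of_card (n := 1) (by rw [hDc]; norm_num)
  have hDi : ¬ 3 ∣ D.relIndex K := by
    intro h4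
    rw [hDK, Subgroup.inf_relIndex_right] at h4
    exact h.syl (h4.trans (relIndex_dvd T K))
  have hmemD : ∀ x ∈ D, x = 1 ∨ x = z ∨ x = z⁻¹ := by
    intro x hx
    obtain ⟨i, rfl⟩ := mem_zpowers_iff.1 hx
    have h5 := Int.emod_nonneg i (by norm_num : (3 : ℤ) ≠ 0)
    have h6 := Int.emod_lt_of_pos i (by norm_num : (0 : ℤ) < 3)
    have h7 : z ^ i = z ^ (i % 3) := by
      rw [← Int.emod_add_mul_ediv i 3, zpow_add, zpow_mul]
      have : z ^ (3 : ℤ) = 1 := by exact_mod_cast hz3
      simp [this]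
    rw [h7]
    have h8 : i % 3 = 0 ∨ i % 3 = 1 ∨ i % 3 = 2 := by omega
    rcases h8 with h8 | h8 | h8
    · left; rw [h8, zpow_zero]
    · right; left; rw [h8, zpow_one]
    · right; right
      rw [h8, eq_inv_iff_mul_eq_one]
      have : z ^ (2 : ℤ) * z = z ^ (3 : ℤ) := by rw [← zpow_add_one]; norm_num
      rw [this]; exact_mod_cast hz3
  have hzinv : z ≠ z⁻¹ := by
    intro h4
    have h5 : z ^ 2 = 1 := by rw [sq]; nth_rewrite 2 [h4]; rw [mul_inv_cancel]
    have h6 := orderOf_dvd_of_pow_eq_one h5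
    rw [hzo] at h6
    norm_num at h6
  -- the centraliser of `z` in `K`
  have hcent : ∀ c ∈ K, c * z = z * c → c ∈ D := by
    set C := centralizer {z} ⊓ K with hC
    have hDC : D ≤ C := by
      rw [hD, zpowers_le]
      exact ⟨mem_centralizer_singleton_iff.2 rfl, hz⟩
    have hcomm : ∀ c ∈ C, ∀ d ∈ D, d * c = c * d := by
      intro c hc' d hd
      have h5 : c * z = z * c := mem_centralizer_singleton_iff.1 hc'.1
      obtain ⟨i, rfl⟩ := mem_zpowers_iff.1 hd
      exact ((Commute.zpow_right (h5 : Commute c z) i)).eq.symm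
    have hi : ¬ 3 ∣ D.relIndex C := by
      intro h5
      apply hDi
      rw [← Subgroup.relIndex_mul_relIndex D C K hDC inf_le_right]
      exact h5.mul_right _
    obtain ⟨R, hRC, hRn, hR3, hRc, hRcard⟩ := burnside (p := 3) hDC hDp hi (fun c hc' _ => hcomm c hc')
    have hR : R ≤ ⊥ := by
      apply h.sig R _ hR3
      intro t ht r hr
      apply hRc
      · have hr' := hRC hr
        refine ⟨mem_centralizer_singleton_iff.2 ?_, hK.conj_mem r hr'.2 t⟩
        have h5 : r * z = z * r := mem_centralizer_singleton_iff.1 hr'.1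
        have h6 : t * z = z * t := h.z_comm t ht
        calc t * r * t⁻¹ * z = t * r * (t⁻¹ * (z * t)) * t⁻¹ := by group
          _ = t * (r * z) * t⁻¹ := by rw [← h6]; group
          _ = (t * z) * r * t⁻¹ := by rw [h5]; group
          _ = z * (t * r * t⁻¹) := by rw [h6]; group
      · have h5 : orderOf (t * r * t⁻¹) = orderOf r := by
          have := orderOf_injective (MulAut.conj t).toMonoidHom (MulAut.conj t).injective r
          exact this
        rw [h5]
        have h6 : orderOf r ∣ Nat.card R := by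
          have := orderOf_dvd_natCard (⟨r, hr⟩ : R)
          rwa [Subgroup.orderOf_mk] at this
        rw [Nat.coprime_comm]
        exact (Nat.Prime.coprime_iff_not_dvd Nat.prime_three).2 fun h7 => hR3 (h7.trans h6)
    have hR1 : Nat.card R = 1 := by
      rw [le_bot_iff] at hR
      rw [hR]; exact Subgroup.card_bot
    rw [hR1, one_mul] at hRcard
    have hDC' : D = C := Subgroup.eq_of_le_of_card_ge hDC (by rw [hRcard])
    intro c hc' h5
    rw [hDC']
    exact ⟨mem_centralizer_singleton_iff.2 h5, hc'⟩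
  -- an element inverting `z`
  obtain ⟨s, hsK, hsz⟩ : ∃ s ∈ K, s * z * s⁻¹ = z⁻¹ := by
    by_contra hcon
    push Not at hcon
    have hN : ∀ c ∈ K, (∀ d ∈ D, c * d * c⁻¹ ∈ D) → ∀ d ∈ D, d * c = c * d := by
      intro c hc' h5 d hd
      have h6 : c * z = z * c := by
        rcases hmemD _ (h5 z (mem_zpowers z)) with h7 | h7 | h7
        · exfalso
          apply h.z_ne
          have h8 : z = c⁻¹ * (c * z * c⁻¹) * c := by group
          rw [h8, h7]; group
        · exact mul_inv_eq_iff_eq_mul.1 h7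
        · exact absurd h7 (hcon c hc')
      obtain ⟨i, rfl⟩ := mem_zpowers_iff.1 hd
      exact ((Commute.zpow_right (h6 : Commute c z) i)).eq.symm
    have hDK' : D ≤ K := by rw [hD, zpowers_le]; exact hz
    obtain ⟨R, hRK, hRn, hR3, hRc, hRcard⟩ := burnside (p := 3) hDK' hDp hDi hN
    have hRnorm : (R.subgroupOf K).Normal := ⟨fun r hr k => hRn k k.2 r hr⟩
    rcases hRnorm.eq_bot_or_eq_top with h5 | h5
    · have h6 : R = ⊥ := by
        have := (Subgroup.subgroupOf_eq_bot.1 h5)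
        exact (disjoint_of_le_iff_left_eq_bot hRK).1 this
      rw [h6, Subgroup.card_bot, one_mul, hDc] at hRcard
      apply hc
      have : Fact (Nat.card K).Prime := ⟨by rw [← hRcard]; exact Nat.prime_three⟩
      have : IsCyclic K := isCyclic_of_prime_card (p := Nat.card K) rfl
      exact IsCyclic.isMulCommutative
    · have h6 : R = K := le_antisymm hRK (Subgroup.subgroupOf_eq_top.1 h5)
      apply hR3
      rw [h6, ← hRcard, hDc]
      exact dvd_mul_left 3 _
  -- `s` is an involution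
  have hs2 : s * s = 1 := by
    have h5 : s * s * z = z * (s * s) := by
      have h6 : s * z = z⁻¹ * s := mul_inv_eq_iff_eq_mul.1 hsz
      have h7 : s * z⁻¹ = z * s := by
        have h8 : s * z⁻¹ * s⁻¹ = (s * z * s⁻¹)⁻¹ := by group
        rw [hsz, inv_inv] at h8
        exact mul_inv_eq_iff_eq_mul.1 h8
      rw [mul_assoc, h6, ← mul_assoc, h7, mul_assoc]
    have h6 := hmemD _ (hcent (s * s) (mul_mem hsK hsK) h5)
    have h7 : s * (s * s) * s⁻¹ = s * s := by group
    rcases h6 with h8 | h8 | h8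
    · exact h8
    · exfalso
      rw [h8, hsz] at h7
      exact hzinv h7.symm
    · exfalso
      have h9 : s * z⁻¹ * s⁻¹ = z := by
        have : s * z⁻¹ * s⁻¹ = (s * z * s⁻¹)⁻¹ := by group
        rw [this, hsz, inv_inv]
      rw [h8, h9] at h7
      exact hzinv h7
  have hsinv : s⁻¹ = s := inv_eq_of_mul_eq_one_left hs2
  -- every element of `T` is in `C(s) ⟨z⟩`
  have hfac : ∀ t ∈ T, ∃ w ∈ D, (t * w) * s = s * (t * w) := by
    intro t ht
    have h5 : t * s * t⁻¹ * s⁻¹ ∈ D := by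
      apply hcent
      · exact mul_mem (hK.conj_mem s hsK t) (inv_mem hsK)
      · have h6 : t * z = z * t := h.z_comm t ht
        have h7 : s⁻¹ * z * s = z⁻¹ := by rw [hsinv]; rw [hsinv] at hsz; exact hsz
        have h8 : s⁻¹ * z = z⁻¹ * s⁻¹ := by rw [← h7]; group
        have h9 : t⁻¹ * z⁻¹ = z⁻¹ * t⁻¹ := by
          rw [← mul_inv_rev, ← mul_inv_rev, h6]
        have h10 : s * z⁻¹ = z * s := by
          have h8 : s * z⁻¹ * s⁻¹ = (s * z * s⁻¹)⁻¹ := by group
          rw [hsz, inv_inv] at h8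
          exact mul_inv_eq_iff_eq_mul.1 h8
        calc t * s * t⁻¹ * s⁻¹ * z = t * s * t⁻¹ * (s⁻¹ * z) := by group
          _ = t * s * (t⁻¹ * z⁻¹) * s⁻¹ := by rw [h8]; group
          _ = t * (s * z⁻¹) * t⁻¹ * s⁻¹ := by rw [h9]; group
          _ = (t * z) * s * t⁻¹ * s⁻¹ := by rw [h10]; group
          _ = z * (t * s * t⁻¹ * s⁻¹) := by rw [h6]; group
    -- `t s t⁻¹ = d s`, `d ∈ D`; take `w = d` (as `d s d⁻¹ = d² s = d⁻¹ s`)
    set d := t * s * t⁻¹ * s⁻¹ with hd
    have hdd : s * d = d⁻¹ * s := by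
      have h6 : s * z = z⁻¹ * s := mul_inv_eq_iff_eq_mul.1 hsz
      have h7 : s * z⁻¹ = z * s := by
        have h8 : s * z⁻¹ * s⁻¹ = (s * z * s⁻¹)⁻¹ := by group
        rw [hsz, inv_inv] at h8
        exact mul_inv_eq_iff_eq_mul.1 h8
      rcases hmemD _ h5 with h8 | h8 | h8
      · rw [h8]; group
      · rw [h8, h6]
      · rw [h8, h7, inv_inv]
    have hdt : d * t = t * d := by
      have h6 : t * z = z * t := h.z_comm t ht
      rcases hmemD _ h5 with h8 | h8 | h8
      · rw [h8]; group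
      · rw [h8, h6]
      · rw [h8]
        calc z⁻¹ * t = z⁻¹ * (t * z) * z⁻¹ := by group
          _ = t * z⁻¹ := by rw [h6]; group
    have hd3 : d * d * d = 1 := by
      have h6 : z * z * z = 1 := by rw [← sq, ← pow_succ]; exact hz3
      rcases hmemD _ h5 with h8 | h8 | h8
      · rw [h8]; group
      · rw [h8, h6]
      · rw [h8]
        have : z⁻¹ * z⁻¹ * z⁻¹ = (z * z * z)⁻¹ := by group
        rw [this, h6, inv_one]
    have hts : t * s = d * s * t := by rw [hd]; group
    refine ⟨d, h5, ?_⟩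
    have hsd : d * s = s * d⁻¹ := by
      have h6 : s * d⁻¹ = d * s := by
        calc s * d⁻¹ = s * d⁻¹ * s⁻¹ * s := by group
          _ = (s * d * s⁻¹)⁻¹ * s := by group
          _ = (d⁻¹ * s * s⁻¹)⁻¹ * s := by rw [hdd]
          _ = d * s := by group
      exact h6.symm
    have hdinv : d⁻¹ * d⁻¹ = d := by
      have h6 : d * d = d⁻¹ := eq_inv_of_mul_eq_one_left hd3
      rw [← mul_inv_rev, h6, inv_inv]
    calc t * d * s = t * (d * s) := by group
      _ = (t * s) * d⁻¹ := by rw [hsd]; group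
      _ = (d * s) * (t * d⁻¹) := by rw [hts]; group
      _ = s * d⁻¹ * (t * d⁻¹) := by rw [hsd]
      _ = s * (d⁻¹ * t) * d⁻¹ := by group
      _ = s * (t * d⁻¹) * d⁻¹ := by
          have : d⁻¹ * t = t * d⁻¹ := by
            calc d⁻¹ * t = d⁻¹ * (t * d) * d⁻¹ := by group
              _ = d⁻¹ * (d * t) * d⁻¹ := by rw [hdt]
              _ = t * d⁻¹ := by group
          rw [this]
      _ = s * (t * (d⁻¹ * d⁻¹)) := by group
      _ = s * (t * d) := by rw [hdinv]
  -- the subgroup `E = C_T(s)`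
  set E := T ⊓ centralizer {s} with hE
  have hEne : E ≠ ⊥ := by
    intro h5
    have h6 : T ≤ D := by
      intro t ht
      obtain ⟨w, hw, h7⟩ := hfac t ht
      have hwT : w ∈ T := by rw [hDK] at hw; exact hw.1
      have h8 : t * w ∈ E := ⟨mul_mem ht hwT, mem_centralizer_singleton_iff.2 h7⟩
      rw [h5, Subgroup.mem_bot] at h8
      rw [eq_inv_of_mul_eq_one_left h8]
      exact inv_mem hw
    have h7 := Subgroup.card_le_of_le h6
    rw [h.card_T, hDc] at h7
    norm_num at h7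
  have hEp : IsPGroup 3 E := (T_pgroup h).to_le inf_le_left
  have : Nontrivial E := (Subgroup.nontrivial_iff_ne_bot _).2 hEne
  have := hEp.center_nontrivial
  obtain ⟨⟨e, he⟩, hne⟩ := exists_ne (1 : center E)
  have he1 : (e : Γ) ≠ 1 := fun h5 => hne (Subtype.ext (Subtype.ext h5))
  have hec : ∀ y ∈ T, (e : Γ) * y = y * e := by
    intro y hy
    obtain ⟨w, hw, h7⟩ := hfac y hy
    have hwT : w ∈ T := by rw [hDK] at hw; exact hw.1
    have h8 : y * w ∈ E := ⟨mul_mem hy hwT, mem_centralizer_singleton_iff.2 h7⟩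
    have h9 := congrArg Subtype.val (mem_center_iff.1 he ⟨y * w, h8⟩)
    have h9' : y * w * e = e * (y * w) := h9
    have h10 : (e : Γ) * w = w * e := by
      have h11 : (e : Γ) * z = z * e := h.z_comm _ e.2.1
      obtain ⟨i, rfl⟩ := mem_zpowers_iff.1 hw
      exact (Commute.zpow_right (h11 : Commute (e : Γ) z) i).eq
    calc (e : Γ) * y = e * (y * w) * w⁻¹ := by group
      _ = y * (w * e) * w⁻¹ := by rw [← h9']; group
      _ = y * e := by rw [← h10]; group
  have heD : (e : Γ) ∈ D := h.center _ e.2.1 hec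
  have hes : (e : Γ) * s = s * e := mem_centralizer_singleton_iff.1 e.2.2
  rcases hmemD _ heD with h5 | h5 | h5
  · exact he1 h5
  · rw [h5] at hes
    apply hzinv
    rw [← hsz, ← hes, mul_inv_cancel_right]
  · rw [h5] at hes
    apply hzinv
    have h6 : z * s = s * z := by
      calc z * s = z * (s * z⁻¹) * z := by group
        _ = z * (z⁻¹ * s) * z := by rw [hes]
        _ = s * z := by group
    rw [← hsz, ← h6, mul_inv_cancel_right]

end Cfsg.Agent.H38.Co1
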